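import Cfsg.Agent.H36.EPL.Psl
import Cfsg.Agent.Lib.SolvableMinNormal
import Cfsg.Agent.ClassicalGeometry.PSL2Solvable
import Cfsg.Agent.ClassicalGeometry.SL2Outer

/-!
# S3499: the local subgroups of `PSL₂(2ⁿ)` (helper7)

`ncard_locK_two` : `LocK (PSL₂(F))`, `|F| = k = 2ⁿ`, has at most `k² + k + 1 + n (|PSL₂(F)| / 60)` elements: the
normalisers of the centralisers of elements (`k² + k + 1`), and the conjugates of the subfield groups.
-/

set_option autoImplicit false
set_option linter.unusedSectionVars false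
set_option linter.style.haveILetI false

namespace Cfsg.Agent.H7.EP.LocTwo

open Matrix MulAction OnePoint Matrix.SpecialLinearGroup
open Cfsg.Agent.ClassicalGeometry.PoleCount Cfsg.Agent.ClassicalGeometry.PoleCount.Pole
open Cfsg.Agent.ClassicalGeometry.PoleBridge Cfsg.Agent.ClassicalGeometry.PoleWild
open Cfsg.Agent.ClassicalGeometry.PoleCases Cfsg.Agent.ClassicalGeometry.DicksonWild
open Cfsg.Agent.ClassicalGeometry.PSL2Basic Cfsg.Agent.ClassicalGeometry.PSL2ElemOrder
open Cfsg.Agent.ClassicalGeometry.SplitTorus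
open Cfsg.Agent.ClassicalGeometry.DicksonSubfield
open Cfsg.Agent.Lib.Mobius Cfsg.Agent.S0799

local notation "SL2" => Matrix.SpecialLinearGroup (Fin 2)
local notation "PSL2" => Matrix.ProjectiveSpecialLinearGroup (Fin 2)

section sub

variable {F : Type*} [Field F] [DecidableEq F]

/-- the subfield subgroup -/
def X (k : Subfield F) : Subgroup (PSL2 F) :=
  (Matrix.SpecialLinearGroup.map (n := Fin 2) k.subtype).range.map (QuotientGroup.mk' _)

theorem mem_X {k : Subfield F} {A : SL2 F} (h : ∀ i j, A i j ∈ k) : cl A ∈ X k := by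
  refine ⟨A, ⟨⟨Matrix.of fun i j => (⟨A i j, h i j⟩ : k), ?_⟩, ?_⟩, rfl⟩
  · have h1 := det_eq A
    apply Subtype.ext
    rw [Matrix.det_fin_two]
    simpa using h1
  · ext i j
    rfl

theorem mem_of_sq_mem [Fintype F] [CharP F 2] (k : Subfield F) {s : F} (h : s ^ 2 ∈ k) : s ∈ k := by
  obtain ⟨n, hn, hF⟩ := FiniteField.card F 2
  obtain ⟨m, hm⟩ := Nat.exists_eq_succ_of_ne_zero n.pos.ne'
  have h1 := FiniteField.pow_card s
  rw [hF, hm, Nat.succ_eq_add_one, pow_succ', pow_mul] at h1
  rw [← h1]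
  exact pow_mem h _

/-- The normalised case. -/
theorem normalised1 [Fintype F] [CharP F 2] (H : Subgroup (PSL2 F))
    (hinf : ∞ ∈ OpF 2 H) (hzero : ((0 : F) : OnePoint F) ∈ OpF 2 H) (hu : cl (up (1 : F)) ∈ H) (htr : Trans 2 H) :
    ∃ k : Subfield F, H = X k := by
  haveI : Fact (Nat.Prime 2) := ⟨Nat.prime_two⟩
  obtain ⟨v, hvH, hv1, hvp, hvx⟩ := id hzero
  obtain ⟨c₀, rfl⟩ := exists_lo 2 v hvp hvx
  have hc₀ : c₀ ≠ 0 := by
    rintro rfl
    apply hv1
    have h1 : lo (0 : F) = 1 := by apply ext2 <;> simp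
    rw [h1]
    rfl
  set H₁ : Subgroup (ProjGenLinGroup (Fin 2) F) := H.map ProjectiveSpecialLinearGroup.toPGL with hH₁
  set G : Subgroup (GL (Fin 2) F) := H₁.comap ProjGenLinGroup.mk with hG
  have hmem : ∀ A : SL2 F, toGL A ∈ G ↔ cl A ∈ H := by
    intro A
    rw [hG, Subgroup.mem_comap, ← ProjectiveSpecialLinearGroup.toPGL_mk]
    constructor
    · rintro ⟨h, hh, he⟩
      have h1 : h = cl A := ProjectiveSpecialLinearGroup.toPGL_injective he
      rw [← h1]
      exact hh
    · intro h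
      exact ⟨_, h, rfl⟩
  have horb : ∀ g ∈ G, g 1 0 ≠ 0 → toGL (up (g 0 0 / g 1 0)) ∈ G := by
    intro g hg hg10
    rw [hG, Subgroup.mem_comap] at hg
    obtain ⟨h, hh, hhg⟩ := hg
    obtain ⟨A, rfl⟩ := exists_rep h
    rw [ProjectiveSpecialLinearGroup.toPGL_mk, ProjGenLinGroup.mk_eq_mk_iff] at hhg
    obtain ⟨t, ht⟩ := hhg
    have s00 : (GeneralLinearGroup.scalar (Fin 2) t) 0 0 = (t : F) := by
      rw [GeneralLinearGroup.coe_scalar]; simp
    have s10 : (GeneralLinearGroup.scalar (Fin 2) t) 1 0 = (0 : F) := by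
      rw [GeneralLinearGroup.coe_scalar]; simp
    have e00 := congrArg (fun M : GL (Fin 2) F => M 0 0) ht
    have e10 := congrArg (fun M : GL (Fin 2) F => M 1 0) ht
    simp only [gl_mul00, gl_mul10, s00, s10, toGL_apply] at e00 e10
    have ht0 : (t : F) ≠ 0 := t.ne_zero
    have e00' : A 0 0 * t = g 0 0 := by linear_combination e00
    have e10' : A 1 0 * t = g 1 0 := by linear_combination e10
    have hA10 : A 1 0 ≠ 0 := by
      intro h0
      rw [h0, zero_mul] at e10'
      exact hg10 e10'.symm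
    -- the image of `∞`
    have hz : pslPerm F (cl A) ∞ = ((A 0 0 / A 1 0 : F) : OnePoint F) := by
      rw [pslPerm_mk, slHom_infty, if_neg hA10]
    have hzmem : ((A 0 0 / A 1 0 : F) : OnePoint F) ∈ OpF 2 H := by
      rw [← hz]
      exact smul_mem_OpF 2 hinf hh
    obtain ⟨g', hg'H, hg'p, hg'x, hg'y⟩ := htr ∞ hinf _ hzero _ hzmem (coe_ne_infty _)
      (coe_ne_infty _)
    obtain ⟨b, rfl⟩ := exists_up 2 g' hg'p hg'x
    rw [pslPerm_up_zero, coe_eq_coe] at hg'y
    rw [hmem]
    have h3 : g 0 0 / g 1 0 = b := by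
      rw [hg'y, ← e00', ← e10']
      field_simp
    rw [h3]
    exact hg'H
  obtain ⟨k, hk1, hk2, hk3⟩ := exists_subfield G ((hmem _).2 hu) c₀ hc₀ ((hmem _).2 hvH) horb
  refine ⟨k, le_antisymm ?_ ?_⟩
  · intro h hh
    obtain ⟨A, rfl⟩ := exists_rep h
    obtain ⟨s, hs0, hs⟩ := hk3 (toGL A) ((hmem A).2 hh)
    have hs2 : s ^ 2 ∈ k := by
      have h1 := det_eq A
      have h2 : s ^ 2 = (s * A 0 0) * (s * A 1 1) - (s * A 0 1) * (s * A 1 0) := by
        linear_combination -(s ^ 2) * h1
      rw [h2]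
      exact sub_mem (mul_mem (hs 0 0) (hs 1 1)) (mul_mem (hs 0 1) (hs 1 0))
    have hsk := mem_of_sq_mem k hs2
    apply mem_X
    intro i j
    have h3 : A i j = s⁻¹ * (s * A i j) := by field_simp
    rw [h3]
    exact mul_mem (inv_mem hsk) (hs i j)
  · rintro _ ⟨_, ⟨A, rfl⟩, rfl⟩
    have h2 : A ∈ (H.comap (QuotientGroup.mk' _)).comap (Matrix.SpecialLinearGroup.map (n := Fin 2) k.subtype) := by
      apply mem_of_up_lo
      · intro b
        have h3 := (hmem _).1 (hk1 (b : F) b.2)
        have h4 : Matrix.SpecialLinearGroup.map k.subtype (up b) = up (b : F) := by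
          apply ext2
          · exact map_one k.subtype
          · rfl
          · exact map_zero k.subtype
          · exact map_one k.subtype
        rw [Subgroup.mem_comap, Subgroup.mem_comap, h4]
        exact h3
      · intro b
        have h3 := (hmem _).1 (hk2 (b : F) b.2)
        have h4 : Matrix.SpecialLinearGroup.map k.subtype (lo b) = lo (b : F) := by
          apply ext2
          · exact map_one k.subtype
          · exact map_zero k.subtype
          · rfl
          · exact map_one k.subtype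
        rw [Subgroup.mem_comap, Subgroup.mem_comap, h4]
        exact h3
    exact h2

/-- normalisation of a pair of points and an involution -/
theorem exists_move1 [Fintype F] [CharP F 2] (x y : OnePoint F) (hxy : x ≠ y) {u : PSL2 F} (hu1 : u ≠ 1) (hu2 : u ^ 2 = 1)
    (hux : pslPerm F u x = x) :
    ∃ g : PSL2 F, pslPerm F g x = ∞ ∧ pslPerm F g y = ((0 : F) : OnePoint F) ∧ g * u * g⁻¹ = cl (up (1 : F)) := by
  haveI : Fact (Nat.Prime 2) := ⟨Nat.prime_two⟩
  obtain ⟨b, hbx, hby⟩ := exists_move x y hxy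
  have h1 : (b * u * b⁻¹) ^ 2 = 1 := by rw [conj_pow, hu2, mul_one, mul_inv_cancel]
  have h2 : pslPerm F (b * u * b⁻¹) ∞ = ∞ := by
    rw [← hbx, map_mul, map_mul, map_inv, Equiv.Perm.mul_apply, Equiv.Perm.mul_apply, pinv_apply, hux]
  obtain ⟨a, ha⟩ := exists_up 2 _ h1 h2
  have ha0 : a ≠ 0 := by
    rintro rfl
    rw [up_zero] at ha
    exact hu1 (conj_eq_one_iff.mp ha)
  obtain ⟨s, hs⟩ := FiniteField.isSquare_of_char_two (ringChar.eq F 2) a⁻¹
  have hs0 : s ≠ 0 := by
    rintro rfl
    rw [mul_zero, inv_eq_zero] at hs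
    exact ha0 hs
  refine ⟨cl (dg (Units.mk0 s hs0)) * b, ?_, ?_, ?_⟩
  · rw [map_mul, Equiv.Perm.mul_apply, hbx, pslPerm_mk, slHom_infty_iff, dg10]
  · rw [map_mul, Equiv.Perm.mul_apply, hby, pslPerm_mk, slHom_coe]
    simp [hs0]
  · have h3 : cl (dg (Units.mk0 s hs0)) * b * u * (cl (dg (Units.mk0 s hs0)) * b)⁻¹ =
        cl (dg (Units.mk0 s hs0)) * (b * u * b⁻¹) * (cl (dg (Units.mk0 s hs0)))⁻¹ := by group
    rw [h3, ha]
    have h4 : cl (dg (Units.mk0 s hs0)) * cl (up a) * (cl (dg (Units.mk0 s hs0)))⁻¹ =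
        cl (dg (Units.mk0 s hs0) * up a * (dg (Units.mk0 s hs0))⁻¹) := rfl
    rw [h4, dg_conj_up]
    congr 2
    show s ^ 2 * a = 1
    rw [sq, ← hs, inv_mul_cancel₀ ha0]

/-- The general case. -/
theorem main_trans1 [Fintype F] [CharP F 2] (H : Subgroup (PSL2 F))
    {x y : OnePoint F} (hx : x ∈ OpF 2 H) (hy : y ∈ OpF 2 H) (hxy : x ≠ y) (htr : Trans 2 H) :
    ∃ (k : Subfield F) (g : PSL2 F), H.map (MulAut.conj g).toMonoidHom = X k := by
  haveI : Fact (Nat.Prime 2) := ⟨Nat.prime_two⟩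
  obtain ⟨u₀, hu₀H, hu₀1, hu₀p, hu₀x⟩ := id hx
  obtain ⟨b, hbx, hby, hbu⟩ := exists_move1 x y hxy hu₀1 hu₀p hu₀x
  set H' := H.map (MulAut.conj b).toMonoidHom with hH'
  have hmem : ∀ h ∈ H, b * h * b⁻¹ ∈ H' := fun h hh => ⟨h, hh, rfl⟩
  have hOp : ∀ z, z ∈ OpF 2 H → pslPerm F b z ∈ OpF 2 H' := by
    rintro z ⟨u, huH, hu1, hup, hux⟩
    refine ⟨b * u * b⁻¹, hmem u huH, fun h => hu1 (conj_eq_one_iff.mp h), ?_, ?_⟩
    · rw [conj_pow, hup, mul_one, mul_inv_cancel]
    · rw [map_mul, map_mul, map_inv, Equiv.Perm.mul_apply, Equiv.Perm.mul_apply, pinv_apply, hux]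
  have hOp' : ∀ z, z ∈ OpF 2 H' → ∃ w ∈ OpF 2 H, pslPerm F b w = z := by
    rintro z ⟨_, ⟨u, huH, rfl⟩, hu1, hup, hux⟩
    refine ⟨(pslPerm F b)⁻¹ z, ⟨u, huH, ?_, ?_, ?_⟩, papply_inv _ _⟩
    · rintro rfl
      exact hu1 (map_one _)
    · have h1 : (MulAut.conj b) (u ^ 2) = 1 := by
        rw [map_pow]; exact hup
      exact (MulEquiv.map_eq_one_iff _).mp h1
    · have h1 : pslPerm F (b * u * b⁻¹) z = z := hux
      rw [map_mul, map_mul, map_inv, Equiv.Perm.mul_apply, Equiv.Perm.mul_apply] at h1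
      apply (pslPerm F b).injective
      rw [h1, papply_inv]
  have htr' : Trans 2 H' := by
    intro x1 hx1 y1 hy1 z1 hz1 hyx hzx
    obtain ⟨x2, hx2, rfl⟩ := hOp' x1 hx1
    obtain ⟨y2, hy2, rfl⟩ := hOp' y1 hy1
    obtain ⟨z2, hz2, rfl⟩ := hOp' z1 hz1
    obtain ⟨g, hgH, hgp, hgx, hgy⟩ := htr x2 hx2 y2 hy2 z2 hz2 (fun h => hyx (by rw [h]))
      (fun h => hzx (by rw [h]))
    refine ⟨b * g * b⁻¹, hmem g hgH, ?_, ?_, ?_⟩
    · rw [conj_pow, hgp, mul_one, mul_inv_cancel]
    · rw [map_mul, map_mul, map_inv, Equiv.Perm.mul_apply, Equiv.Perm.mul_apply, pinv_apply, hgx]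
    · rw [map_mul, map_mul, map_inv, Equiv.Perm.mul_apply, Equiv.Perm.mul_apply, pinv_apply, hgy]
  have h1 := hOp x hx
  have h2 := hOp y hy
  rw [hbx] at h1
  rw [hby] at h2
  obtain ⟨k, hk⟩ := normalised1 H' h1 h2 (by rw [← hbu]; exact hmem _ hu₀H) htr'
  exact ⟨k, b, hk⟩

end sub

/-! ### Dickson's theorem, characteristic two -/

/-- a nontrivial commutative characteristic subgroup -/
def HasAb (G : Type*) [Group G] : Prop := ∃ Y : Subgroup G, Y.Characteristic ∧ Y ≠ ⊥ ∧ ∀ a ∈ Y, ∀ b ∈ Y, a * b = b * a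

theorem hasAb_of_solvable {G : Type*} [Group G] (h : Group.IsSolvable G) (hn : Nontrivial G) : HasAb G := by
  obtain ⟨A, h1, h2, h3⟩ := Cfsg.Agent.Lib.SolvableMinNormal.exists_characteristic_abelian (G := G)
  exact ⟨A, h1, h3, fun a ha b hb => congrArg Subtype.val (h2.is_comm.comm (⟨a, ha⟩ : A) ⟨b, hb⟩)⟩

theorem solvable_congr {G G' : Type*} [Group G] [Group G'] (e : G ≃* G') (h : Group.IsSolvable G') : Group.IsSolvable G :=
  Group.isSolvable_of_isSolvable_injective (f := e.toMonoidHom) e.injective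

theorem dick2' {F : Type*} [Field F] [Fintype F] [DecidableEq F] (p : ℕ) (hp2 : p = 2) [Fact p.Prime] [CharP F p]
    (H : Subgroup (PSL2 F)) (hH : H ≠ ⊥) :
    HasAb H ∨ ∃ (k : Subfield F) (g : PSL2 F), H.map (MulAut.conj g).toMonoidHom = X k := by
  classical
  haveI : Nontrivial H := (Subgroup.nontrivial_iff_ne_bot H).2 hH
  let K := AlgebraicClosure F
  haveI : CharP K p := charP_of_injective_algebraMap (algebraMap F K).injective p
  let ι : F →+* K := algebraMap F K
  let φ : H →* PSL2 K := (pslMap ι).comp H.subtype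
  have hφ : Function.Injective φ := (pslMap_injective ι).comp H.subtype_injective
  letI := act φ
  have pole : Pole p K H (OnePoint K) := pole_of_injective p φ hφ
  have hact : ∀ (g : H) (x : OnePoint K), g • x = pslPerm K (pslMap ι (g : _)) x := fun _ _ => rfl
  by_cases hp : p ∣ Nat.card H
  · -- the wild case
    obtain ⟨u, hu⟩ := exists_prime_orderOf_dvd_card' p hp
    have hup : u ^ p = 1 := by rw [← hu]; exact pow_orderOf_eq_one u
    have hu1 : u ≠ 1 := by
      rintro rfl
      rw [orderOf_one] at hu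
      exact (Fact.out : p.Prime).one_lt.ne hu
    obtain ⟨x₀, hx₀⟩ := pole.one u hu1 hup
    have hx₀' : x₀ ∈ Op p H (OnePoint K) := ⟨u, hu1, hup, (hx₀ x₀).mpr rfl⟩
    by_cases hone : ∀ x ∈ Op p H (OnePoint K), x = x₀
    · -- the Sylow subgroup is normal
      left
      obtain ⟨P, hP⟩ := pole.exists_sylow hx₀'
      have hnorm : (P : Subgroup H).Normal := by
        rw [hP]
        refine ⟨fun n hn g => ?_⟩
        have hg : g • x₀ = x₀ := hone _ (smul_mem_Op g hx₀')
        refine ⟨?_, ?_⟩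
        · rw [mul_smul, mul_smul, inv_smul_eq_iff.mpr hg.symm, hn.1, hg]
        · rw [conj_pow, hn.2, mul_one, mul_inv_cancel]
      have hc : (P : Subgroup H).Characteristic := Sylow.characteristic_of_normal P hnorm
      refine ⟨P, hc, P.ne_bot_of_dvd_card hp, ?_⟩
      -- `P` is commutative
      obtain ⟨R, hR⟩ := (P.2.map H.subtype).exists_le_sylow
      intro a ha b hb
      apply Subtype.ext
      exact Cfsg.Agent.H36.EPL.sylow_comm p R (hR ⟨a, ha, rfl⟩) (hR ⟨b, hb, rfl⟩)
    · push Not at hone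
      obtain ⟨x₁, hx₁, hne⟩ := hone
      have hr : 2 ≤ (Op p H (OnePoint K)).ncard := by
        refine (Set.ncard_pair (Ne.symm hne)).ge.trans ?_
        exact Set.ncard_le_ncard (by
          rintro x (rfl | rfl)
          · exact hx₀'
          · exact hx₁) pole.finite_Op
      obtain ⟨y, hy, heq, h1 | ⟨h1, h2, h3⟩ | ⟨h1, h2, h3, h4, h5, h6⟩⟩ := numbers pole hx₀' hr
      · -- transfer to the projective line over `F`
        right
        have hrat : ∀ x ∈ Op p H (OnePoint K), ∃ x' ∈ OpF p H, OnePoint.map ι x' = x := by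
          rintro x ⟨v, hv1, hvp, hvx⟩
          have hvp' : (v : PSL2 F) ^ p = 1 :=
            congrArg Subtype.val hvp
          obtain ⟨x', hx'⟩ := exists_fix_rational p _ hvp'
          refine ⟨x', ⟨v, v.2, fun h => hv1 (Subtype.ext h), hvp', hx'⟩, ?_⟩
          obtain ⟨y, hy⟩ := pole.one v hv1 hvp
          rw [(hy x).mp hvx]
          apply (hy _).mp
          rw [hact, pslPerm_map, hx']
        have hOp : ∀ x ∈ OpF p H, OnePoint.map ι x ∈ Op p H (OnePoint K) := by
          rintro x ⟨v, hvH, hv1, hvp, hvx⟩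
          refine ⟨⟨v, hvH⟩, fun h => hv1 (congrArg Subtype.val h), Subtype.ext hvp, ?_⟩
          rw [hact, pslPerm_map, hvx]
        have htr : ∀ x ∈ Op p H (OnePoint K), ∀ y ∈ Op p H (OnePoint K), ∀ z ∈ Op p H (OnePoint K), y ≠ x → z ≠ x →
            ∃ g : H, g ^ p = 1 ∧ g • x = x ∧ g • y = z := by
          intro x hx a ha b hb hax hbx
          obtain ⟨g, hg, hg'⟩ := transitive_of_ncard pole hx₀' h1 hx ha hb hax hbx
          exact ⟨g, hg.2, hg.1, hg'⟩
        have hTr : Trans p H := by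
          intro x hx y hy z hz hyx hzx
          obtain ⟨g, hgp, hgx, hgy⟩ := htr _ (hOp x hx) _ (hOp y hy) _ (hOp z hz)
            (fun h => hyx (map_injective ι h)) (fun h => hzx (map_injective ι h))
          refine ⟨g, g.2, congrArg Subtype.val hgp, ?_, ?_⟩
          · apply map_injective ι
            rw [← pslPerm_map, ← hact, hgx]
          · apply map_injective ι
            rw [← pslPerm_map, ← hact, hgy]
        obtain ⟨a, ha, hax⟩ := hrat x₀ hx₀'
        obtain ⟨b, hb, hbx⟩ := hrat x₁ hx₁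
        have hab : a ≠ b := by
          rintro rfl
          exact hne (hbx.symm.trans hax)
        subst hp2
        exact main_trans1 H ha hb hab hTr
      · left
        obtain ⟨hd⟩ : Nonempty (H ≃* DihedralGroup (Nat.card (stabilizer H y))) := by
          apply dihedral_of_index_two pole hy
          · intro t ht
            rwa [hp2]
          · rw [h3, h2]
        exact hasAb_of_solvable (solvable_congr hd (Cfsg.Agent.ClassicalGeometry.PSL2Solvable.isSolvable_dihedral _))
          inferInstance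
      · -- `A₅` : the group of the third numerical case
        exfalso
        have h7 : p = 3 := eq_of_card_E pole Nat.prime_three h1
        omega
  · -- the tame case
    left
    have hpow : ∀ g : H, g ≠ 1 → g ^ p ≠ 1 := by
      intro g hg hgp
      apply hp
      rw [← orderOf_eq_prime hgp hg]
      exact orderOf_dvd_natCard g
    have hcyc : ∀ x : OnePoint K, IsCyclic (stabilizer H x) := by
      intro x
      obtain ⟨χ, hχ⟩ := pole.chi x
      have hinj : Function.Injective χ := by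
        rw [injective_iff_map_eq_one]
        intro g hg
        by_contra hne
        have h1 := (hχ g).mp hg
        exact hpow g (fun h => hne (Subtype.ext h)) (congrArg Subtype.val h1)
      have hcoe : Function.Injective (Units.coeHom K) := Units.val_injective
      exact isCyclic_of_injective_ringHom ((Units.coeHom K).comp χ) (hcoe.comp hinj)
    rcases Cfsg.Agent.ClassicalGeometry.PolePrime.pole_prime
      (fun (g : H) hg => pole.two g (hpow g hg)) hcyc with h1 | ⟨k, hk, ⟨e⟩⟩ | ⟨⟨e⟩⟩ | ⟨⟨e⟩⟩ | ⟨⟨e⟩⟩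
    · refine ⟨⊤, inferInstance, ?_, ?_⟩
      · exact top_ne_bot
      · intro a _ b _
        exact h1.commGroup.mul_comm a b
    · exact hasAb_of_solvable (solvable_congr e (Cfsg.Agent.ClassicalGeometry.PSL2Solvable.isSolvable_dihedral k))
        inferInstance
    · exfalso
      apply hp
      rw [hp2, Nat.card_congr e.toEquiv, nat_card_alternatingGroup, Nat.card_eq_fintype_card, Fintype.card_fin]
      decide
    · exfalso
      apply hp
      rw [hp2, Nat.card_congr e.toEquiv, Nat.card_perm, Nat.card_eq_fintype_card, Fintype.card_fin]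
      decide
    · exfalso
      apply hp
      rw [hp2, Nat.card_congr e.toEquiv, nat_card_alternatingGroup, Nat.card_eq_fintype_card, Fintype.card_fin]
      decide

theorem dick2 {F : Type*} [Field F] [Fintype F] [DecidableEq F] [CharP F 2] (H : Subgroup (PSL2 F)) (hH : H ≠ ⊥) :
    HasAb H ∨ ∃ (k : Subfield F) (g : PSL2 F), H.map (MulAut.conj g).toMonoidHom = X k := by
  haveI : Fact (Nat.Prime 2) := ⟨Nat.prime_two⟩
  exact dick2' 2 rfl H hH

/-! ### centralisers -/

section cent

open Subgroup Cfsg.Agent.H273.EPU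

/-- matrices commuting with a matrix which is not scalar commute -/
theorem comm_of_comm {F : Type*} [Field F] {A B C : Matrix (Fin 2) (Fin 2) F}
    (hA : A 0 1 ≠ 0 ∨ A 1 0 ≠ 0 ∨ A 0 0 - A 1 1 ≠ 0) (h1 : A * B = B * A) (h2 : A * C = C * A) : B * C = C * B := by
  have b00 := congrFun (congrFun h1 0) 0
  have b01 := congrFun (congrFun h1 0) 1
  have b10 := congrFun (congrFun h1 1) 0
  have c00 := congrFun (congrFun h2 0) 0
  have c01 := congrFun (congrFun h2 0) 1
  have c10 := congrFun (congrFun h2 1) 0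
  simp only [Matrix.mul_apply, Fin.sum_univ_two] at b00 b01 b10 c00 c01 c10
  have key : B 0 1 * C 1 0 = C 0 1 * B 1 0 ∧ (B 0 0 - B 1 1) * C 0 1 = B 0 1 * (C 0 0 - C 1 1) ∧
      (B 0 0 - B 1 1) * C 1 0 = B 1 0 * (C 0 0 - C 1 1) := by
    rcases hA with h | h | h
    · refine ⟨mul_left_cancel₀ h ?_, mul_left_cancel₀ h ?_, mul_left_cancel₀ h (mul_left_cancel₀ h ?_)⟩
      · linear_combination B 0 1 * c00 - C 0 1 * b00
      · linear_combination -(C 0 1) * b01 + B 0 1 * c01
      · linear_combination -(A 0 1 * C 1 0) * b01 + A 0 1 * B 1 0 * c01 +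
          (A 0 0 - A 1 1) * (B 0 1 * c00 - C 0 1 * b00)
    · refine ⟨mul_left_cancel₀ h ?_, mul_left_cancel₀ h (mul_left_cancel₀ h ?_), mul_left_cancel₀ h ?_⟩
      · linear_combination B 1 0 * c00 - C 1 0 * b00
      · linear_combination A 1 0 * C 0 1 * b10 - A 1 0 * B 0 1 * c10 -
          (A 0 0 - A 1 1) * (B 1 0 * c00 - C 1 0 * b00)
      · linear_combination C 1 0 * b10 - B 1 0 * c10
    · refine ⟨mul_left_cancel₀ h (mul_left_cancel₀ h ?_), mul_left_cancel₀ h ?_, mul_left_cancel₀ h ?_⟩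
      · linear_combination (A 0 0 - A 1 1) * C 1 0 * b01 - A 0 1 * (B 0 0 - B 1 1) * c10 -
          (A 0 0 - A 1 1) * B 1 0 * c01 + A 0 1 * (C 0 0 - C 1 1) * b10
      · linear_combination (B 0 0 - B 1 1) * c01 - (C 0 0 - C 1 1) * b01
      · linear_combination -(B 0 0 - B 1 1) * c10 + (C 0 0 - C 1 1) * b10
  ext i j
  fin_cases i <;> fin_cases j <;> simp only [Matrix.mul_apply, Fin.sum_univ_two, Fin.zero_eta, Fin.mk_one, Fin.isValue]
  · linear_combination key.1
  · linear_combination key.2.1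
  · linear_combination -key.2.2
  · linear_combination -key.1

variable {F : Type*} [Field F]

theorem cl_inj [CharP F 2] {A B : SL2 F} (h : cl A = cl B) : A = B := by
  have h1 := QuotientGroup.eq.1 h
  rw [mem_center_SL2_iff] at h1
  have h2 : (-1 : SL2 F) = 1 := by
    ext i j
    rw [Matrix.SpecialLinearGroup.coe_neg, Matrix.neg_apply, CharTwo.neg_eq]
  rw [h2, or_self, inv_mul_eq_one] at h1
  exact h1

theorem not_scalar [CharP F 2] {A : SL2 F} (hA : A ≠ 1) : A 0 1 ≠ 0 ∨ A 1 0 ≠ 0 ∨ A 0 0 - A 1 1 ≠ 0 := by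
  by_contra hcon
  push Not at hcon
  obtain ⟨h1, h2, h3⟩ := hcon
  apply hA
  have hd := det_eq A
  have h4 : A 1 1 = A 0 0 := (sub_eq_zero.1 h3).symm
  rw [h1, zero_mul, sub_zero, h4] at hd
  have h5 : (A 0 0 - 1) ^ 2 = 0 := by
    rw [sub_sq]
    have h6 : (2 : F) = 0 := by exact_mod_cast CharP.cast_eq_zero F 2
    linear_combination hd + (1 - A 0 0) * h6
  have h6 : A 0 0 = 1 := by
    have := pow_eq_zero_iff (two_ne_zero) |>.1 h5
    exact sub_eq_zero.1 this
  apply ext2
  · rw [h6]; rfl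
  · rw [h1]; rfl
  · rw [h2]; rfl
  · rw [h4, h6]; rfl

theorem cent_comm [CharP F 2] {g a b : PSL2 F} (hg : g ≠ 1) (ha : g * a = a * g) (hb : g * b = b * g) : a * b = b * a := by
  classical
  obtain ⟨A, rfl⟩ := exists_rep g
  obtain ⟨B, rfl⟩ := exists_rep a
  obtain ⟨C, rfl⟩ := exists_rep b
  have h1 : A * B = B * A := cl_inj ha
  have h2 : A * C = C * A := cl_inj hb
  have hA : A ≠ 1 := by
    rintro rfl
    exact hg rfl
  have h3 := comm_of_comm (not_scalar hA) (congrArg Subtype.val h1) (congrArg Subtype.val h2)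
  have h4 : B * C = C * B := Subtype.ext h3
  show cl (B * C) = cl (C * B)
  rw [h4]

/-- a member of `LocK` with a commutative characteristic subgroup, centralisers being commutative -/
theorem locK_ab {L : Type*} [Group L] (hca : ∀ g a b : L, g ≠ 1 → g * a = a * g → g * b = b * g → a * b = b * a)
    {H : Subgroup L} (hH : H ∈ LocK L) (hab : HasAb H) :
    ∃ g : L, g ≠ 1 ∧ H = normalizer {a : L | g * a = a * g} := by
  obtain ⟨Y, hY, hY0, hYa⟩ := hab
  obtain ⟨y, hy, hy1⟩ : ∃ y ∈ Y, y ≠ 1 := by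
    by_contra hcon
    push Not at hcon
    exact hY0 ((eq_bot_iff_forall Y).2 hcon)
  have hy1' : (y : L) ≠ 1 := fun h => hy1 (Subtype.ext h)
  refine ⟨y, hy1', ?_⟩
  have hcY : (centralizer (Y : Set H)).Characteristic := inferInstance
  have hle : Y ≤ centralizer (Y : Set H) := by
    intro a ha
    rw [mem_centralizer_iff]
    intro b hb
    exact hYa b hb a ha
  have hne : centralizer (Y : Set H) ≠ ⊥ := fun h => hY0 (le_bot_iff.1 (h ▸ hle))
  have h1 := Cfsg.Agent.H36.EPL.locK_eq hH hcY hne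
  have h2 := Cfsg.Agent.H36.EPL.locK_eq hH hY hY0
  have h3 : (((centralizer (Y : Set H)).map H.subtype : Subgroup L) : Set L) = {a : L | (y : L) * a = a * (y : L)} := by
    ext a
    constructor
    · rintro ⟨c, hc, rfl⟩
      exact congrArg Subtype.val (mem_centralizer_iff.1 hc y hy)
    · intro ha
      have ha' : (y : L) * a = a * (y : L) := ha
      have hcomm : ∀ b ∈ Y, (b : L) * a = a * (b : L) := fun b hb =>
        (hca _ _ _ hy1' ha' (congrArg Subtype.val (hYa y hy b hb))).symm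
      have haH : a ∈ H := by
        rw [← h2, mem_normalizer_iff]
        intro x
        constructor
        · rintro ⟨b, hb, rfl⟩
          refine ⟨b, hb, ?_⟩
          show (b : L) = a * (b : L) * a⁻¹
          rw [← hcomm b hb, mul_inv_cancel_right]
        · rintro ⟨b, hb, hb2⟩
          refine ⟨b, hb, ?_⟩
          have hb3 : (b : L) = a * x * a⁻¹ := hb2
          show (b : L) = x
          have h5 : x = a⁻¹ * (b : L) * a := by rw [hb3]; group
          rw [h5, mul_assoc, hcomm b hb, inv_mul_cancel_left]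
      refine ⟨⟨a, haH⟩, ?_, rfl⟩
      show (⟨a, haH⟩ : H) ∈ centralizer (Y : Set H)
      rw [mem_centralizer_iff]
      intro b hb
      exact Subtype.ext (hcomm b hb)
  rw [← h3]
  exact h1.symm

/-- normalised matrices -/
def tmat : (F × F) ⊕ (F ⊕ Unit) → Matrix (Fin 2) (Fin 2) F
  | .inl (b, c) => !![1, b; c, 0]
  | .inr (.inl c) => !![0, 1; c, 0]
  | .inr (.inr _) => !![0, 0; 1, 0]

theorem exists_tmat {A : Matrix (Fin 2) (Fin 2) F} (hA : A 0 1 ≠ 0 ∨ A 1 0 ≠ 0 ∨ A 0 0 - A 1 1 ≠ 0) :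
    ∃ (t : (F × F) ⊕ (F ⊕ Unit)) (l m : F), l ≠ 0 ∧ A = l • tmat t + m • (1 : Matrix (Fin 2) (Fin 2) F) := by
  by_cases h1 : A 0 0 - A 1 1 = 0
  · by_cases h2 : A 0 1 = 0
    · have h3 : A 1 0 ≠ 0 := by
        rcases hA with h | h | h
        · exact absurd h2 h
        · exact h
        · exact absurd h1 h
      refine ⟨.inr (.inr ()), A 1 0, A 1 1, h3, ?_⟩
      ext i j
      fin_cases i <;> fin_cases j <;> simp [tmat, h2]
      linear_combination h1
    · refine ⟨.inr (.inl (A 1 0 / A 0 1)), A 0 1, A 1 1, h2, ?_⟩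
      ext i j
      fin_cases i <;> fin_cases j <;> simp [tmat]
      · linear_combination h1
      · field_simp
  · refine ⟨.inl (A 0 1 / (A 0 0 - A 1 1), A 1 0 / (A 0 0 - A 1 1)), A 0 0 - A 1 1, A 1 1, h1, ?_⟩
    ext i j
    fin_cases i <;> fin_cases j <;> simp [tmat]
    · field_simp
    · field_simp

theorem comm_tmat {A B T : Matrix (Fin 2) (Fin 2) F} {l m : F} (hl : l ≠ 0)
    (h : A = l • T + m • (1 : Matrix (Fin 2) (Fin 2) F)) : A * B = B * A ↔ T * B = B * T := by
  rw [h, add_mul, mul_add, smul_mul_assoc, mul_smul_comm, smul_mul_assoc, mul_smul_comm, one_mul, mul_one,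
    add_left_inj]
  constructor
  · intro h1
    have h2 := congrArg (fun M => l⁻¹ • M) h1
    simpa [smul_smul, inv_mul_cancel₀ hl] using h2
  · intro h1
    rw [h1]

/-- the first family -/
theorem ncard_cent [Fintype F] [CharP F 2] :
    {H : Subgroup (PSL2 F) | ∃ g : PSL2 F, g ≠ 1 ∧ H = normalizer {a : PSL2 F | g * a = a * g}}.ncard ≤
      Fintype.card F ^ 2 + Fintype.card F + 1 := by
  classical
  let f : (F × F) ⊕ (F ⊕ Unit) → Subgroup (PSL2 F) := fun t =>
    normalizer {a : PSL2 F | ∃ B : SL2 F, a = cl B ∧ tmat t * (B : Matrix (Fin 2) (Fin 2) F) = B * tmat t}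
  have hsub : {H : Subgroup (PSL2 F) | ∃ g : PSL2 F, g ≠ 1 ∧ H = normalizer {a : PSL2 F | g * a = a * g}} ⊆
      Set.range f := by
    rintro H ⟨g, hg, rfl⟩
    obtain ⟨A, rfl⟩ := exists_rep g
    have hA : A ≠ 1 := by
      rintro rfl
      exact hg rfl
    obtain ⟨t, l, m, hl, hAt⟩ := exists_tmat (not_scalar hA)
    refine ⟨t, ?_⟩
    show normalizer _ = normalizer _
    congr 1
    ext a
    constructor
    · rintro ⟨B, rfl, hB⟩
      rw [← comm_tmat hl hAt] at hB
      have h1 : A * B = B * A := Subtype.ext hB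
      show cl (A * B) = cl (B * A)
      rw [h1]
    · intro ha
      obtain ⟨B, rfl⟩ := exists_rep a
      have h1 : A * B = B * A := cl_inj ha
      exact ⟨B, rfl, (comm_tmat hl hAt).1 (congrArg Subtype.val h1)⟩
  refine (Set.ncard_le_ncard hsub (Set.toFinite _)).trans ?_
  rw [← Set.image_univ]
  refine (Set.ncard_image_le (Set.toFinite _)).trans ?_
  rw [Set.ncard_univ, Nat.card_eq_fintype_card, Fintype.card_sum, Fintype.card_sum, Fintype.card_prod, Fintype.card_unit]
  ring_nf
  omega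

end cent

/-! ### subfields -/

section sf

open Subgroup Cfsg.Agent.H273.EPU

variable {F : Type*} [Field F] [Fintype F]

theorem mem_subfield_iff (k : Subfield F) (x : F) : x ∈ k ↔ x ^ Nat.card k = x := by
  have : Finite k := Subtype.finite
  letI := Fintype.ofFinite k
  constructor
  · intro hx
    have h1 := FiniteField.pow_card (⟨x, hx⟩ : k)
    rw [← Nat.card_eq_fintype_card] at h1
    exact congrArg Subtype.val h1
  · intro hx
    obtain ⟨t, ht⟩ := Cfsg.Agent.ClassicalGeometry.SL2Outer.exists_of_pow_card_eq (F := k) (E := F)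
      hx
    rw [← ht]
    exact t.2

theorem subfield_eq {k k' : Subfield F} (h : Nat.card k = Nat.card k') : k = k' := by
  ext x
  rw [mem_subfield_iff, mem_subfield_iff, h]

theorem card_subfield_eq [CharP F 2] {n : ℕ} (hn : Fintype.card F = 2 ^ n) (k : Subfield F) :
    ∃ e, 1 ≤ e ∧ e ≤ n ∧ Nat.card k = 2 ^ e := by
  haveI : Finite k := Subtype.finite
  letI := Fintype.ofFinite k
  haveI : CharP k 2 := charP_of_injective_algebraMap (R := k) (A := F) (algebraMap k F).injective 2 |> fun _ =>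
    (RingHom.charP_iff k.subtype k.subtype.injective 2).2 inferInstance
  obtain ⟨e, _, he⟩ := FiniteField.card k 2
  refine ⟨e, e.pos, ?_, ?_⟩
  · have h1 : Fintype.card k ≤ Fintype.card F := Fintype.card_subtype_le _
    rw [he, hn] at h1
    exact (Nat.pow_le_pow_iff_right (by norm_num)).1 h1
  · rw [Nat.card_eq_fintype_card, he]

instance : Finite (Subfield F) := Finite.of_injective (fun k : Subfield F => (k : Set F)) SetLike.coe_injective

theorem card_subfields [CharP F 2] {n : ℕ} (hn : Fintype.card F = 2 ^ n) : Nat.card (Subfield F) ≤ n := by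
  classical
  letI := Fintype.ofFinite (Subfield F)
  rw [Nat.card_eq_fintype_card, ← Finset.card_univ]
  choose e h1 h2 h3 using card_subfield_eq hn
  calc (Finset.univ : Finset (Subfield F)).card ≤ (Finset.Icc 1 n).card := by
        apply Finset.card_le_card_of_injOn e
        · intro k _
          exact Finset.mem_coe.2 (Finset.mem_Icc.2 ⟨h1 k, h2 k⟩)
        · intro k _ k' _ h
          apply subfield_eq
          rw [h3, h3, h]
    _ = n := by rw [Nat.card_Icc]; omega

theorem card_X [CharP F 2] (k : Subfield F) : Nat.card (X k) = Nat.card k * (Nat.card k ^ 2 - 1) := by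
  haveI : Finite k := Subtype.finite
  letI := Fintype.ofFinite k
  have h1 : X k = ((QuotientGroup.mk' _).comp (Matrix.SpecialLinearGroup.map (n := Fin 2) k.subtype)).range :=
    MonoidHom.map_range _ _
  have hinj : Function.Injective ((QuotientGroup.mk' (Subgroup.center (SL2 F))).comp
      (Matrix.SpecialLinearGroup.map (n := Fin 2) k.subtype)) := by
    intro A B h
    have h2 : Matrix.SpecialLinearGroup.map (n := Fin 2) k.subtype A = Matrix.SpecialLinearGroup.map k.subtype B :=
      cl_inj h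
    ext i j
    have h3 := congrArg (fun M : SL2 F => M i j) h2
    exact congrArg Subtype.val (Subtype.ext h3 : A i j = B i j)
  rw [h1, ← Nat.card_congr (MonoidHom.ofInjective hinj).toEquiv, card_SL2, Nat.card_eq_fintype_card]

theorem ncard_conj {L : Type*} [Group L] [Finite L] (X : Subgroup L) :
    {H : Subgroup L | ∃ g : L, H.map (MulAut.conj g).toMonoidHom = X}.ncard ≤ X.index := by
  classical
  let f : L ⧸ X → Subgroup L := fun q => X.map (MulAut.conj q.out).toMonoidHom
  have hcomp : ∀ (H : Subgroup L) (a b : L), (H.map (MulAut.conj a).toMonoidHom).map (MulAut.conj b).toMonoidHom =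
      H.map (MulAut.conj (b * a)).toMonoidHom := by
    intro H a b
    rw [Subgroup.map_map]
    congr 1
    ext x
    simp
  have hX : ∀ x ∈ X, X.map (MulAut.conj x).toMonoidHom = X := by
    intro x hx
    ext y
    constructor
    · rintro ⟨z, hz, rfl⟩
      exact X.mul_mem (X.mul_mem hx hz) (X.inv_mem hx)
    · intro hy
      refine ⟨x⁻¹ * y * x, X.mul_mem (X.mul_mem (X.inv_mem hx) hy) hx, ?_⟩
      show x * (x⁻¹ * y * x) * x⁻¹ = y
      group
  have hsub : {H : Subgroup L | ∃ g : L, H.map (MulAut.conj g).toMonoidHom = X} ⊆ Set.range f := by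
    rintro H ⟨g, hg⟩
    refine ⟨((g⁻¹ : L) : L ⧸ X), ?_⟩
    show X.map (MulAut.conj ((g⁻¹ : L) : L ⧸ X).out).toMonoidHom = H
    obtain ⟨x, hx⟩ := QuotientGroup.mk_out_eq_mul X g⁻¹
    rw [hx, ← hcomp, hX x x.2, ← hg, hcomp, inv_mul_cancel, map_one]
    exact Subgroup.map_id H
  refine (Set.ncard_le_ncard hsub (Set.toFinite _)).trans ?_
  rw [← Set.image_univ]
  refine (Set.ncard_image_le (Set.toFinite _)).trans ?_
  rw [Set.ncard_univ]
  exact le_rfl

theorem hasAb_six {G : Type*} [Group G] [Finite G] (h : Nat.card G = 6) : HasAb G := by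
  haveI : Fact (Nat.Prime 3) := ⟨Nat.prime_three⟩
  obtain ⟨P⟩ : Nonempty (Sylow 3 G) := inferInstance
  have h3 : 3 ∣ Nat.card G := by rw [h]; norm_num
  have h1 : 3 ∣ Nat.card P := P.dvd_card_of_dvd_card h3
  have h2 : Nat.card P ∣ 6 := h ▸ Subgroup.card_subgroup_dvd_card _
  obtain ⟨n, hn⟩ := IsPGroup.iff_card.mp P.2
  have h4 : Nat.card P = 3 := by
    have h5 : Nat.card P ≤ 6 := Nat.le_of_dvd (by norm_num) h2
    have h6 : n ≤ 1 := by
      by_contra hcon
      have : 3 ^ 2 ≤ 3 ^ n := Nat.pow_le_pow_right (by norm_num) (by omega)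
      rw [← hn] at this
      omega
    interval_cases n
    · rw [hn] at h1
      norm_num at h1
    · exact hn
  have h5 : (P : Subgroup G).index = 2 := by
    have := (P : Subgroup G).card_mul_index
    rw [h] at this
    have h7 : Nat.card (P : Subgroup G) = 3 := h4
    rw [h7] at this
    omega
  have hnorm := Subgroup.normal_of_index_eq_two h5
  refine ⟨P, Sylow.characteristic_of_normal P hnorm, P.ne_bot_of_dvd_card h3, ?_⟩
  haveI : IsCyclic P := isCyclic_of_prime_card (p := 3) h4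
  intro a ha b hb
  exact congrArg Subtype.val ((IsCyclic.commGroup (α := P)).mul_comm ⟨a, ha⟩ ⟨b, hb⟩)

theorem hasAb_congr {G G' : Type*} [Group G] [Group G'] (e : G ≃* G') (h : HasAb G') : HasAb G := by
  obtain ⟨Y, h1, h2, h3⟩ := h
  refine ⟨Y.map e.symm.toMonoidHom, Cfsg.Agent.H59.EP.char_map e.symm h1, ?_, ?_⟩
  · intro h
    rw [Subgroup.map_eq_bot_iff_of_injective _ e.symm.injective] at h
    exact h2 h
  · rintro _ ⟨a, ha, rfl⟩ _ ⟨b, hb, rfl⟩
    have := h3 a ha b hb
    show e.symm a * e.symm b = e.symm b * e.symm a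
    rw [← map_mul, ← map_mul, this]

/-- **the number of the local subgroups of `PSL₂(2ⁿ)`** -/
theorem ncard_locK_two [CharP F 2] {n : ℕ} (hn : Fintype.card F = 2 ^ n) :
    (LocK (PSL2 F)).ncard ≤ (Fintype.card F ^ 2 + Fintype.card F + 1) + n * (Nat.card (PSL2 F) / 60) := by
  classical
  let S₁ : Set (Subgroup (PSL2 F)) :=
    {H : Subgroup (PSL2 F) | ∃ g : PSL2 F, g ≠ 1 ∧ H = normalizer {a : PSL2 F | g * a = a * g}}
  let C : Subfield F → Set (Subgroup (PSL2 F)) := fun k =>
    {H : Subgroup (PSL2 F) | 60 ≤ Nat.card (X k) ∧ ∃ g : PSL2 F, H.map (MulAut.conj g).toMonoidHom = X k}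
  letI := Fintype.ofFinite (Subfield F)
  have hsub : LocK (PSL2 F) ⊆ S₁ ∪ ⋃ k ∈ (Finset.univ : Finset (Subfield F)), C k := by
    intro H hH
    have hab : HasAb H → H ∈ S₁ := fun hab => locK_ab (fun g a b hg ha hb => cent_comm hg ha hb) hH hab
    rcases dick2 H hH.1 with h1 | ⟨k, g, hkg⟩
    · exact Or.inl (hab h1)
    · obtain ⟨e, he1, he2, he3⟩ := card_subfield_eq hn k
      rcases Nat.lt_or_ge e 2 with h2 | h2
      · left
        apply hab
        apply hasAb_congr (H.equivMapOfInjective (MulAut.conj g).toMonoidHom (MulAut.conj g).injective)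
        apply hasAb_six
        have h3 : Nat.card (H.map (MulAut.conj g).toMonoidHom) = Nat.card (X k) := by rw [hkg]
        refine h3.trans ?_
        rw [card_X, he3, show e = 1 by omega]
        norm_num
      · right
        simp only [Set.mem_iUnion, Finset.mem_univ, exists_prop, true_and]
        refine ⟨k, ?_, g, hkg⟩
        rw [card_X, he3]
        have h4 : 2 ^ 2 ≤ 2 ^ e := Nat.pow_le_pow_right (by norm_num) h2
        have h5 : 4 ^ 2 ≤ (2 ^ e) ^ 2 := Nat.pow_le_pow_left h4 2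
        calc 60 = 4 * 15 := by norm_num
          _ ≤ 2 ^ e * ((2 ^ e) ^ 2 - 1) := Nat.mul_le_mul h4 (by omega)
  have hC : ∀ k : Subfield F, (C k).ncard ≤ Nat.card (PSL2 F) / 60 := by
    intro k
    by_cases h60 : 60 ≤ Nat.card (X k)
    · have h1 : (C k).ncard ≤ (X k).index := by
        refine (Set.ncard_le_ncard ?_ (Set.toFinite _)).trans (ncard_conj (X k))
        exact fun H hH => hH.2
      refine h1.trans ?_
      rw [Nat.le_div_iff_mul_le (by norm_num), ← (X k).index_mul_card]
      exact Nat.mul_le_mul_left _ h60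
    · have h1 : C k = ∅ := by
        ext H
        exact ⟨fun hH => h60 hH.1, fun h => h.elim⟩
      rw [h1, Set.ncard_empty]
      exact Nat.zero_le _
  have hU : (⋃ k ∈ (Finset.univ : Finset (Subfield F)), C k).ncard ≤ n * (Nat.card (PSL2 F) / 60) := by
    refine (Finset.set_ncard_biUnion_le _ _).trans ?_
    refine (Finset.sum_le_card_nsmul _ _ _ (fun k _ => hC k)).trans ?_
    rw [smul_eq_mul, Finset.card_univ, ← Nat.card_eq_fintype_card]
    exact Nat.mul_le_mul_right _ (card_subfields hn)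
  refine (Set.ncard_le_ncard hsub (Set.toFinite _)).trans ((Set.ncard_union_le _ _).trans (Nat.add_le_add ?_ hU))
  exact ncard_cent

end sf

end Cfsg.Agent.H7.EP.LocTwo
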